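import Cfsg.Agent.H296.FR.Sieg

/-!
helper572 (S2452, `F4(q)`, `q` odd): the ratio bound on the abelian group `EE K L0` of order `q^7` (the seven root
subgroups with numbers `20, 2, 16, 17, 43, 26, 25`), without mention of the embedding.

`ratio_mem_gen` : general `q ≥ 3`; `ratio_mem_five` : `2 / 25`, `q ≥ 5`; `ratio_mem_seven` : `7 / 200`, `q ≥ 7`.
-/

set_option autoImplicit false
set_option linter.unusedSectionVars false

namespace Cfsg.Agent.H572.FR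

open Cfsg Cfsg.Lie Module Matrix
open Cfsg.Agent.LieClassical Cfsg.Agent.LieClassical.OrthForms Cfsg.Agent.LieClassical.OrthCore
open Cfsg.Agent.Tits.Roots Cfsg.Agent.Nodes.BNOf Cfsg.Agent.Nodes.RGDChev Cfsg.Agent.KFacts.RgdChevCoord
open Cfsg.Agent.H885.Pw.JB Cfsg.Agent.H224.FR
open Cfsg.Agent.H701.F43.Cent (hF)

universe u

variable {K : Type u} [Field K] [Finite K]

/-- the embedding, for all odd `q` -/
theorem exists_emb (h2 : (2 : K) ≠ 0) :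
    ∃ e : Multiplicative (W7 K) →* ↥(chevF4.group K), Function.Injective e ∧
      (∀ h ∈ E (oddForm 3 K), ∃ g, ∀ w : W7 K,
        g * e (Multiplicative.ofAdd w) * g⁻¹ = e (Multiplicative.ofAdd (h w))) ∧
      (∀ k t, e (Multiplicative.ofAdd (Pi.single k (ss K k * t))) = xc hF (vec chevF4 4 (rr k)) t) ∧
      e.range = EE K L0 := by
  obtain ⟨ρ, hρ, hi⟩ := exists_J K
  obtain ⟨e, he, act, h3⟩ := Cfsg.Agent.H31.FR.exists_e h2 hρ hi
  obtain ⟨p, hpc⟩ := CharP.exists K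
  have hx : ∀ k t, e (Multiplicative.ofAdd (Pi.single k (ss K k * t))) = xc hF (vec chevF4 4 (rr k)) t := by
    intro k t
    obtain ⟨hm, h4⟩ := Cfsg.Agent.H296.FR.sieg hρ h2 hi k t
    exact (h3 _ p ⟨_, hm⟩ h4 (Subtype.ext (Cfsg.Agent.H31.FR.xc_pow (rr_lt k) t))).symm
  exact ⟨e, he, act, hx, range_eq (ss_sq K) hx⟩

theorem card_EE (h2 : (2 : K) ≠ 0) : Nat.card ↥(EE K L0) = Nat.card K ^ 7 := by
  have : Fintype K := Fintype.ofFinite K
  obtain ⟨e, he, -, -, hR⟩ := exists_emb (K := K) h2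
  rw [← hR, Nat.card_congr (MonoidHom.ofInjective he).toEquiv.symm]
  show Nat.card (Multiplicative (W7 K)) = _
  rw [Nat.card_congr Multiplicative.toAdd, Nat.card_eq_fintype_card, card_W7, Nat.card_eq_fintype_card]

theorem comm_EE (h2 : (2 : K) ≠ 0) {a b : ↥(chevF4.group K)} (ha : a ∈ EE K L0) (hb : b ∈ EE K L0) :
    a * b = b * a := by
  obtain ⟨e, -, -, -, hR⟩ := exists_emb (K := K) h2
  rw [← hR] at ha hb
  obtain ⟨x, rfl⟩ := ha
  obtain ⟨y, rfl⟩ := hb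
  rw [← map_mul, ← map_mul, mul_comm]

/-- **general form** -/
theorem ratio_mem_gen (h2 : (2 : K) ≠ 0) (h3 : 3 ≤ Nat.card K) {d : ℕ}
    (σ : Representation ℂ ↥(chevF4.group K) (Fin d → ℂ)) (hirr : σ.IsIrreducible) (hσ : σ.character ≠ fun _ => 1)
    {a : ↥(chevF4.group K)} (ha : a ∈ EE K L0) (ha1 : a ≠ 1) :
    ‖σ.character a‖ * ((Nat.card K : ℝ) ^ 6 - ((Nat.card K : ℝ) - 7) * (Nat.card K : ℝ) ^ 3 - 1) ≤
      (((Nat.card K : ℝ) + 5) * (Nat.card K : ℝ) ^ 3 + 1) * d ∧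
    (cd σ (EE K L0) : ℝ) * ((Nat.card K : ℝ) ^ 6 - ((Nat.card K : ℝ) - 7) * (Nat.card K : ℝ) ^ 3 - 1) ≤
      6 * (Nat.card K : ℝ) ^ 3 * d := by
  obtain ⟨e, he, act, hx, hR⟩ := exists_emb (K := K) h2
  have ha' := ha
  rw [← hR] at ha'
  obtain ⟨w, rfl⟩ := ha'
  refine ratio_f4_gen (ss_sq K) hx h2 h3 act σ hirr hσ (w := w.toAdd) ?_
  intro h
  apply ha1
  have h4 : w = 1 := Multiplicative.toAdd.injective h
  rw [h4, map_one]

/-- **`q ≥ 5`** -/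
theorem ratio_mem_five (h2 : (2 : K) ≠ 0) (h5 : 5 ≤ Nat.card K) {d : ℕ}
    (σ : Representation ℂ ↥(chevF4.group K) (Fin d → ℂ)) (hirr : σ.IsIrreducible) (hσ : σ.character ≠ fun _ => 1)
    {a : ↥(chevF4.group K)} (ha : a ∈ EE K L0) (ha1 : a ≠ 1) : ‖σ.character a‖ ≤ 2 / 25 * d :=
  five_aux (by exact_mod_cast h5) (norm_nonneg _) (Nat.cast_nonneg _)
    (ratio_mem_gen h2 (by omega) σ hirr hσ ha ha1).1

/-- **`q ≥ 7`** -/
theorem ratio_mem_seven (h2 : (2 : K) ≠ 0) (h7 : 7 ≤ Nat.card K) {d : ℕ}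
    (σ : Representation ℂ ↥(chevF4.group K) (Fin d → ℂ)) (hirr : σ.IsIrreducible) (hσ : σ.character ≠ fun _ => 1)
    {a : ↥(chevF4.group K)} (ha : a ∈ EE K L0) (ha1 : a ≠ 1) : ‖σ.character a‖ ≤ 7 / 200 * d :=
  seven_aux (by exact_mod_cast h7) (norm_nonneg _) (Nat.cast_nonneg _)
    (ratio_mem_gen h2 (by omega) σ hirr hσ ha ha1).1

end Cfsg.Agent.H572.FR
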