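import Cfsg.Agent.H744.FR.Par
import Cfsg.Agent.H534.FR.UQ
import Cfsg.Agent.H980.RB.Step3F
import Cfsg.Agent.H374.FR.Hei

/-!
# `F₄(q)`, `q` odd, `q ≥ 9`: `10 |χ(g)| < χ(1)` for all `p`-singular `g` (S2452; helper572)

The glue of plan F of helper395.

* `XB K` : box (X), the bound for the elements of `C(Z)` outside the unipotent radical;
* `HD σ` : box (D), the dichotomy in the parabolics `i ≠ 3`;
* `HP σ` : box (D1), the elements of the parabolic `i = 3` outside `C(Z)`;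
* `ratio_cen` : the elements of `C(Z)`, `‖χ y‖ ≤ (1 / 50 + q⁻² + 1 / 27) χ(1)`;
* `all_of` : the result.
-/

set_option autoImplicit false
set_option linter.unusedSectionVars false

namespace Cfsg.Agent.H572.FR

open Module Cfsg.Lie Cfsg.Agent.Nodes.RGDChev Cfsg.Agent.KFacts.RgdChevCoord Cfsg.Agent.Nodes.BNOf
open Cfsg.Agent.H701.F43.Cent (hF cF VV MM J3 comm_theta)
open Cfsg.Agent.H520.FC (PK VK XT)
open Cfsg.Agent.H980.RB (xt xt_mem xt_zero mem_XT)

universe u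

/-- the number `r = 1/50 + q⁻²` -/
noncomputable def rq (K : Type u) : ℝ := 1 / 50 + ((Nat.card K : ℝ) ^ 2)⁻¹

theorem num_inv {q : ℝ} (hq : 9 ≤ q) : (q ^ 2)⁻¹ ≤ 1 / 81 := by
  have h1 : (81 : ℝ) ≤ q ^ 2 := by nlinarith
  have h2 : (q ^ 2)⁻¹ ≤ (81 : ℝ)⁻¹ := inv_anti₀ (by norm_num) h1
  norm_num at h2 ⊢
  exact h2

theorem ten_of_le {d : ℕ} {r x : ℝ} (hd : 0 < d) (hr : r < 1 / 10) (h : x ≤ r * d) : 10 * x < d := by
  have h1 : (0 : ℝ) < d := by exact_mod_cast hd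
  nlinarith

/-- **(X)** -/
def XB (K : Type u) [Field K] : Prop := ∀ g ∈ VV K ⊔ MM K, g ∉ VV K →
  Nat.card {x : ↥(VK K {k | k ≠ 3}) //
    (x : ↥(chevF4.group K)) * g * (x : ↥(chevF4.group K))⁻¹ * g⁻¹ ∈ XT K} ≤ Nat.card K ^ 12

section

variable {K : Type u} [Field K] [Finite K] {d : ℕ} (σ : Representation ℂ ↥(chevF4.group K) (Fin d → ℂ))

/-- **(D)**: the dichotomy in the parabolics `i ≠ 3` -/
def HD : Prop := ∀ i : Fin 4, i ≠ 3 → ∀ g ∈ PK K {k | k ≠ i}, ‖σ.character g‖ ≤ rq K * d ∨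
  ∃ x : ↥(chevF4.group K), x * g * x⁻¹ ∈ VV K ⊔ MM K

/-- **(D1)**: the elements of the parabolic `i = 3` outside `C(Z)` -/
def HP : Prop := ∀ g ∈ PK K {k | k ≠ 3}, g ∉ VV K ⊔ MM K →
  ‖σ.character g‖ ≤ (rq K + ((Nat.card K : ℝ) ^ 2)⁻¹) * d

theorem xt_ne_one : xc hF (vec chevF4 4 47) (1 : K) ≠ 1 := by
  obtain ⟨p, hpc⟩ := CharP.exists K
  have : Fact p.Prime := ⟨CharP.char_is_prime K p⟩
  exact ((coords (K := K) hF cF p).coord _ Cfsg.Agent.H701.F43.Cent.isRoot_theta).ne_one one_ne_zero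

/-- the unipotent radical -/
theorem ratio_rad (h2 : (2 : K) ≠ 0) (h9 : 9 ≤ Nat.card K) (hirr : σ.IsIrreducible)
    (hσ : σ.character ≠ fun _ => 1) {g : ↥(chevF4.group K)} (hg : g ∈ VV K) (hg1 : g ≠ 1) :
    ‖σ.character g‖ ≤ rq K * d := by
  have hfr : (finrank ℂ (Fin d → ℂ) : ℝ) = d := by rw [Module.finrank_fintype_fun_eq_card, Fintype.card_fin]
  have h := Cfsg.Agent.H534.FR.norm_Q h2 σ (r := 1 / 50) (by norm_num) (fun a ha ha1 => by
    rw [hfr]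
    exact Cfsg.Agent.H224.FR.ratioA_nine h2 h9 σ hirr hσ ha ha1) hg hg1
  rw [hfr] at h
  exact h

/-- the centralizer of a long root element -/
theorem ratio_cen (h2 : (2 : K) ≠ 0) (h9 : 9 ≤ Nat.card K) (hX : XB K) (hirr : σ.IsIrreducible)
    (hσ : σ.character ≠ fun _ => 1) {g : ↥(chevF4.group K)} (hg : g ∈ VV K ⊔ MM K) (hg1 : g ≠ 1) :
    ‖σ.character g‖ ≤ (rq K + 1 / 27) * d := by
  have hfr : (finrank ℂ (Fin d → ℂ) : ℝ) = d := by rw [Module.finrank_fintype_fun_eq_card, Fintype.card_fin]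
  have hz : xc hF (vec chevF4 4 47) (1 : K) ∈ XT K := mem_XT.2 ⟨1, rfl⟩
  have hr0 : 0 ≤ rq K := by
    unfold rq
    positivity
  have h := Cfsg.Agent.H980.RB.step3F_nine (Cfsg.Agent.H374.FR.Comm.hei h2) Cfsg.Agent.H374.FR.Comm.card_V h9 σ hr0
    (fun x hx hx1 => by
      rw [hfr]
      exact ratio_rad σ h2 h9 hirr hσ hx hx1) hg1 hz xt_ne_one (comm_theta hg hz) (fun h3 => hX g hg h3)
  rw [hfr] at h
  exact h

/-- **the glue** -/
theorem all_of {p : ℕ} [Fact p.Prime] [CharP K p] (h2 : (2 : K) ≠ 0) (h9 : 9 ≤ Nat.card K) (hX : XB K)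
    (hirr : σ.IsIrreducible) (hσ : σ.character ≠ fun _ => 1) (hD : HD σ) (hP : HP σ)
    {g : ↥(chevF4.group K)} (hg : p ∣ orderOf g) : 10 * ‖σ.character g‖ < d := by
  have hq : (9 : ℝ) ≤ (Nat.card K : ℝ) := by exact_mod_cast h9
  have hinv := num_inv hq
  have hrq : rq K = 1 / 50 + ((Nat.card K : ℝ) ^ 2)⁻¹ := rfl
  have hd : 0 < d := by
    rcases Nat.eq_zero_or_pos d with rfl | h
    · exfalso
      have h1 : Subsingleton (Subrepresentation σ) := by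
        refine ⟨fun A B => ?_⟩
        apply Subrepresentation.toSubmodule_injective
        exact Subsingleton.elim _ _
      exact not_subsingleton_iff_nontrivial.2 hirr.toNontrivial h1
    · exact h
  have hg1 : g ≠ 1 := by
    rintro rfl
    rw [orderOf_one] at hg
    exact (Fact.out : p.Prime).one_lt.ne' (Nat.dvd_one.1 hg)
  -- the elements of `C(Z)`
  have key : ∀ y ∈ VV K ⊔ MM K, y ≠ 1 → 10 * ‖σ.character y‖ < d := fun y hy hy1 =>
    ten_of_le hd (by linarith) (ratio_cen σ h2 h9 hX hirr hσ hy hy1)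
  have hconj : ∀ x y : ↥(chevF4.group K), y ≠ 1 → x * y * x⁻¹ ≠ 1 := by
    intro x y hy h
    apply hy
    have h1 : y = x⁻¹ * (x * y * x⁻¹) * x := by group
    rw [h1, h]
    group
  obtain ⟨x, i, hx⟩ := Cfsg.Agent.H744.FR.exists_par (K := K) (p := p) hg
  have hx1 := hconj x g hg1
  rw [← σ.char_conj g x]
  by_cases hi : i = 3
  · subst hi
    by_cases h1 : x * g * x⁻¹ ∈ VV K ⊔ MM K
    · exact key _ h1 hx1
    · exact ten_of_le hd (by linarith) (hP _ hx h1)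
  · rcases hD i hi _ hx with h1 | ⟨y, h1⟩
    · exact ten_of_le hd (by linarith) h1
    · rw [← σ.char_conj _ y]
      exact key _ h1 (hconj y _ hx1)

end

end Cfsg.Agent.H572.FR
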