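import Cfsg.Agent.H572.FR.Main
import Cfsg.Agent.H224.FR.RThree

/-!
helper572 (S2452, `F4(q)`, `q` odd, `q ≥ 5`): the ratio bound in `chevF4.group K`, from the embedding `e` and its
values on the seven root subgroups.
-/

set_option autoImplicit false
set_option linter.unusedSectionVars false

namespace Cfsg.Agent.H572.FR

open Module Cfsg.Lie
open Cfsg.Agent.LieClassical Cfsg.Agent.LieClassical.OrthForms Cfsg.Agent.LieClassical.OrthCore
open Cfsg.Agent.Tits.Roots Cfsg.Agent.Nodes.BNOf Cfsg.Agent.Nodes.RGDChev Cfsg.Agent.KFacts.RgdChevCoord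
open Cfsg.Agent.H224.FR
open Cfsg.Agent.H701.F43.Cent (hF)

universe u

/-- the root indices -/
def rr : Unit ⊕ (Fin 3 ⊕ Fin 3) → ℕ := Sum.elim (fun _ => 20) (Sum.elim ![2, 16, 17] ![43, 26, 25])

theorem rr_lt : ∀ k, rr k < 48 := by decide

theorem rr_mem : ∀ k, rr k ∈ L0 := by decide

section

variable {K : Type u} [Field K] [Finite K] {e : Multiplicative (W7 K) →* ↥(chevF4.group K)}

/-- the vectors mapped into a subgroup -/
def pre (e : Multiplicative (W7 K) →* ↥(chevF4.group K)) (H : Subgroup ↥(chevF4.group K)) : AddSubgroup (W7 K) where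
  carrier := {w | e (Multiplicative.ofAdd w) ∈ H}
  zero_mem' := by
    show e (Multiplicative.ofAdd 0) ∈ H
    rw [ofAdd_zero, map_one]
    exact one_mem _
  add_mem' := fun {a b} ha hb => by
    show e (Multiplicative.ofAdd (a + b)) ∈ H
    rw [ofAdd_add, map_mul]
    exact mul_mem ha hb
  neg_mem' := fun {a} ha => by
    show e (Multiplicative.ofAdd (-a)) ∈ H
    rw [ofAdd_neg, map_inv]
    exact inv_mem ha

theorem mem_of_single {H : Subgroup ↥(chevF4.group K)} {w : W7 K} (h : ∀ k, e (Multiplicative.ofAdd (Pi.single k (w k))) ∈ H) :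
    e (Multiplicative.ofAdd w) ∈ H := by
  classical
  have h1 : w ∈ pre e H := by
    rw [← Finset.univ_sum_single w]
    exact sum_mem fun k _ => h k
  exact h1

variable {ss : Unit ⊕ (Fin 3 ⊕ Fin 3) → K} (hss : ∀ k, ss k * ss k = 1)
  (hx : ∀ k t, e (Multiplicative.ofAdd (Pi.single k (ss k * t))) = xc hF (vec chevF4 4 (rr k)) t)

include hss hx

theorem single_mem (k : Unit ⊕ (Fin 3 ⊕ Fin 3)) (s : K) : e (Multiplicative.ofAdd (Pi.single k s)) ∈ X K (rr k) := by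
  rw [mem_X (rr_lt k)]
  refine ⟨ss k * s, ?_⟩
  rw [← hx, ← mul_assoc, hss, one_mul]

theorem range_eq : e.range = EE K L0 := by
  apply le_antisymm
  · rintro _ ⟨w, rfl⟩
    have h : e (Multiplicative.ofAdd w.toAdd) ∈ EE K L0 :=
      mem_of_single fun k => X_le_EE (rr_mem k) (single_mem hss hx k _)
    exact h
  · refine EE_le fun r hr => ?_
    have h1 : ∃ k, rr k = r := by
      revert r
      decide
    obtain ⟨k, rfl⟩ := h1
    intro y hy
    obtain ⟨a, rfl⟩ := (mem_X (rr_lt k) y).1 hy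
    exact ⟨_, hx k a⟩

/-- the root subgroups of the totally singular plane -/
theorem mem_F {w : W7 K} (hw : w ∈ FF K) : e (Multiplicative.ofAdd w) ∈ X K 2 ⊔ X K 16 ⊔ X K 17 := by
  refine mem_of_single fun k => ?_
  rcases k with k | k | k
  · have h1 : w (.inl k) = 0 := hw.1
    rw [h1, Pi.single_zero, ofAdd_zero, map_one]
    exact one_mem _
  · have h1 := single_mem hss hx (.inr (.inl k)) (w (.inr (.inl k)))
    fin_cases k
    · exact (le_sup_left.trans le_sup_left : X K 2 ≤ X K 2 ⊔ X K 16 ⊔ X K 17) h1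
    · exact (le_sup_right.trans le_sup_left : X K 16 ≤ X K 2 ⊔ X K 16 ⊔ X K 17) h1
    · exact (le_sup_right : X K 17 ≤ X K 2 ⊔ X K 16 ⊔ X K 17) h1
  · rw [hw.2 k, Pi.single_zero, ofAdd_zero, map_one]
    exact one_mem _

/-- **the ratio bound in `F4(q)`, general form** -/
theorem ratio_f4_gen (h2 : (2 : K) ≠ 0) (h5 : 3 ≤ Nat.card K)
    (act : ∀ h ∈ E (oddForm 3 K), ∃ g, ∀ w : W7 K,
      g * e (Multiplicative.ofAdd w) * g⁻¹ = e (Multiplicative.ofAdd (h w)))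
    {d : ℕ} (ρ : Representation ℂ ↥(chevF4.group K) (Fin d → ℂ)) (hirr : ρ.IsIrreducible)
    (hρ : ρ.character ≠ fun _ => 1) {w : W7 K} (hw : w ≠ 0) :
    ‖ρ.character (e (Multiplicative.ofAdd w))‖ *
        ((Nat.card K : ℝ) ^ 6 - ((Nat.card K : ℝ) - 7) * (Nat.card K : ℝ) ^ 3 - 1) ≤
      (((Nat.card K : ℝ) + 5) * (Nat.card K : ℝ) ^ 3 + 1) * d ∧
    (cd ρ (EE K L0) : ℝ) * ((Nat.card K : ℝ) ^ 6 - ((Nat.card K : ℝ) - 7) * (Nat.card K : ℝ) ^ 3 - 1) ≤
      6 * (Nat.card K : ℝ) ^ 3 * d := by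
  obtain ⟨s1, n, s3, c, h1, hn, hE2, hE3, hc, ht⟩ := rthree (K := K)
  have hR := range_eq hss hx
  have hle : X K 2 ⊔ X K 16 ⊔ X K 17 ≤ EE K L1 :=
    sup_le (sup_le (X_le_EE (by decide)) (X_le_EE (by decide))) (X_le_EE (by decide))
  have hc' : ∀ w ∈ FF K, c * e (Multiplicative.ofAdd w) * c⁻¹ ∈ X K 0 ⊔ X K 1 ⊔ X K 15 := by
    intro w hw
    have h3 : (X K 2 ⊔ X K 16 ⊔ X K 17).map (MulAut.conj c).toMonoidHom ≤ X K 0 ⊔ X K 1 ⊔ X K 15 := by
      rw [Subgroup.map_sup, Subgroup.map_sup]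
      exact sup_le (sup_le (hc 2 (by decide)) (hc 16 (by decide))) (hc 17 (by decide))
    exact h3 ⟨_, mem_F hss hx hw, rfl⟩
  rw [← hR]
  refine ratio_bound_gen h2 h5 act (E1 := EE K L1) (E2 := EE K L2) (E3 := EE K L3) (s1 := s1) (n := n) (s3 := s3) (c := c)
    (by rw [hR]; exact h1) (by rw [hR]; exact hn) hE2 hE3 (fun w hw => hle (mem_F hss hx hw)) ?_ ?_
    (by rw [hR]; exact ht) ρ hirr hρ hw
  · intro w hw
    exact (sup_le (sup_le (X_le_EE (by decide)) (X_le_EE (by decide))) (X_le_EE (by decide)) :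
      X K 0 ⊔ X K 1 ⊔ X K 15 ≤ EE K L1) (hc' w hw)
  · intro w hw
    exact (sup_le (sup_le (X_le_EE (by decide)) (X_le_EE (by decide))) (X_le_EE (by decide)) :
      X K 0 ⊔ X K 1 ⊔ X K 15 ≤ EE K L3) (hc' w hw)

/-- **the ratio bound in `F4(q)`** -/
theorem ratio_f4 (h2 : (2 : K) ≠ 0) (h5 : 5 ≤ Nat.card K)
    (act : ∀ h ∈ E (oddForm 3 K), ∃ g, ∀ w : W7 K,
      g * e (Multiplicative.ofAdd w) * g⁻¹ = e (Multiplicative.ofAdd (h w)))
    {d : ℕ} (ρ : Representation ℂ ↥(chevF4.group K) (Fin d → ℂ)) (hirr : ρ.IsIrreducible)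
    (hρ : ρ.character ≠ fun _ => 1) {w : W7 K} (hw : w ≠ 0) :
    ‖ρ.character (e (Multiplicative.ofAdd w))‖ ≤ 2 / 25 * d := by
  exact five_aux (by exact_mod_cast h5) (norm_nonneg _) (Nat.cast_nonneg _)
    (ratio_f4_gen hss hx h2 (by omega) act ρ hirr hρ hw).1

/-- **the ratio bound in `F4(q)`, `q ≥ 7`** -/
theorem ratio_f4_seven (h2 : (2 : K) ≠ 0) (h7 : 7 ≤ Nat.card K)
    (act : ∀ h ∈ E (oddForm 3 K), ∃ g, ∀ w : W7 K,
      g * e (Multiplicative.ofAdd w) * g⁻¹ = e (Multiplicative.ofAdd (h w)))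
    {d : ℕ} (ρ : Representation ℂ ↥(chevF4.group K) (Fin d → ℂ)) (hirr : ρ.IsIrreducible)
    (hρ : ρ.character ≠ fun _ => 1) {w : W7 K} (hw : w ≠ 0) :
    ‖ρ.character (e (Multiplicative.ofAdd w))‖ ≤ 7 / 200 * d :=
  seven_aux (by exact_mod_cast h7) (norm_nonneg _) (Nat.cast_nonneg _)
    (ratio_f4_gen hss hx h2 (by omega) act ρ hirr hρ hw).1

end

end Cfsg.Agent.H572.FR
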