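import Cfsg.Agent.H572.FR.Conc
import Cfsg.Agent.H31.FR.Lift

/-!
helper572 (S2452, `F4(q)`, `q` odd, `q ≥ 5`): the embedding of helper31 and the ratio bound, from the seven Siegel
identities (box R2b).
-/

set_option autoImplicit false
set_option linter.unusedSectionVars false

namespace Cfsg.Agent.H572.FR

open Cfsg Cfsg.Lie Module Matrix
open Cfsg.Agent.ChevalleyStructure Cfsg.Agent.ChevalleyStructure.Elts
open Cfsg.Agent.ChevalleyStructure.E6Min.Tables Cfsg.Agent.ChevalleyStructure.E6Min.Basic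
open Cfsg.Agent.H952.F4 Cfsg.Agent.H952.F4.Jord
open Cfsg.Agent.LieClassical Cfsg.Agent.LieClassical.OrthForms Cfsg.Agent.LieClassical.OrthCore
open Cfsg.Agent.H557.InvF4 Cfsg.Agent.OddHalf.NI.ModelChev
open Cfsg.Agent.Tits.Roots Cfsg.Agent.Nodes.BNOf Cfsg.Agent.Nodes.RGDChev Cfsg.Agent.KFacts.RgdChevCoord
open Cfsg.Agent.H885.Pw.JB

universe u

/-- the signs -/
def ss (K : Type u) [Field K] : Unit ⊕ (Fin 3 ⊕ Fin 3) → K := Sum.elim (fun _ => 1) (Sum.elim ![1, -1, 1] ![1, 1, -1])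

theorem ss_sq (K : Type u) [Field K] (k : Unit ⊕ (Fin 3 ⊕ Fin 3)) : ss K k * ss K k = 1 := by
  rcases k with k | k | k
  · simp [ss]
  · fin_cases k <;> simp [ss]
  · fin_cases k <;> simp [ss]

/-- the Siegel identities -/
def Sieg {K : Type u} [Field K] {ρ : ↥(chevF4.group K) →* GL I27 K} (hρ : IsJ ρ) (h2 : (2 : K) ≠ 0) : Prop :=
  ∀ (k : Unit ⊕ (Fin 3 ⊕ Fin 3)) (t : K),
    ∃ hm : xc Cfsg.Agent.Nodes.KindF.isType (vec chevF4 4 (rr k)) t ∈
        Subgroup.centralizer ({t1 K} : Set ↥(chevF4.group K)),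
      Ph hρ h2 (isT_t1 hρ) ⟨_, hm⟩ = Cfsg.Agent.H31.FR.sgl (Pi.single k (ss K k * t))

/-- **the embedding and the ratio bound** -/
theorem exists_ratio {K : Type u} [Field K] [Finite K] (h2 : (2 : K) ≠ 0) (h5 : 5 ≤ Nat.card K)
    {ρ : ↥(chevF4.group K) →* GL I27 K} (hρ : IsJ ρ) (hi : Function.Injective ρ) (hS : Sieg hρ h2) :
    ∃ e : Multiplicative (W7 K) →* ↥(chevF4.group K), Function.Injective e ∧
      (∀ h ∈ E (oddForm 3 K), ∃ g, ∀ w : W7 K,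
        g * e (Multiplicative.ofAdd w) * g⁻¹ = e (Multiplicative.ofAdd (h w))) ∧
      (∀ k t, e (Multiplicative.ofAdd (Pi.single k (ss K k * t))) =
        xc Cfsg.Agent.Nodes.KindF.isType (vec chevF4 4 (rr k)) t) ∧
      ∀ {d : ℕ} (σ : Representation ℂ ↥(chevF4.group K) (Fin d → ℂ)), σ.IsIrreducible →
        (σ.character ≠ fun _ => 1) → ∀ w : W7 K, w ≠ 0 →
          ‖σ.character (e (Multiplicative.ofAdd w))‖ ≤ 2 / 25 * d := by
  obtain ⟨e, he, act, h3⟩ := Cfsg.Agent.H31.FR.exists_e h2 hρ hi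
  obtain ⟨p, hpc⟩ := CharP.exists K
  have hx : ∀ k t, e (Multiplicative.ofAdd (Pi.single k (ss K k * t))) =
      xc Cfsg.Agent.Nodes.KindF.isType (vec chevF4 4 (rr k)) t := by
    intro k t
    obtain ⟨hm, h4⟩ := hS k t
    exact (h3 _ p ⟨_, hm⟩ h4 (Subtype.ext (Cfsg.Agent.H31.FR.xc_pow (rr_lt k) t))).symm
  exact ⟨e, he, act, hx, fun σ hirr hσ w hw => ratio_f4 (ss_sq K) hx h2 h5 act σ hirr hσ hw⟩

end Cfsg.Agent.H572.FR
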