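import Cfsg.Agent.H572.FR.All
import Cfsg.Agent.H374.FR.POne
import Cfsg.Agent.H351.FR.XBox
import Cfsg.Agent.H982.FR.Row
import Cfsg.Agent.H395.FR.Dich

/-!
# `F₄(q)`, `q` odd, `q ≥ 9` (S2452, helper572): the ratio bound for all `p`-singular elements and the row

`Dich K` : the statement of box (D) (helper395); `ten_of` : `10 |χ(g)| < χ(1)`; `row_of` : `Row3 F₄(q)`.
-/

set_option autoImplicit false
set_option linter.unusedSectionVars false

namespace Cfsg.Agent.H572.FR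

open Cfsg Module Cfsg.Lie Cfsg.Agent.Nodes.RGDChev Cfsg.Agent.KFacts.RgdChevCoord Cfsg.Agent.Nodes.BNOf
open Cfsg.Agent.H701.F43.Cent (hF cF VV MM J3 comm_theta)
open Cfsg.Agent.H520.FC (PK VK XT)
open Cfsg.Agent.H980.RB (xt xt_mem xt_zero mem_XT)

universe u

/-- **(D)** -/
def Dich (K : Type u) [Field K] : Prop := ∀ (d : ℕ) (σ : Representation ℂ ↥(chevF4.group K) (Fin d → ℂ)),
  σ.IsIrreducible → (σ.character ≠ fun _ => 1) → HD σ

section

variable {K : Type u} [Field K] [Finite K]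

/-- **the ratio bound** -/
theorem ten_of {p : ℕ} [Fact p.Prime] [CharP K p] (h2 : (2 : K) ≠ 0) (h9 : 9 ≤ Nat.card K) (hD : Dich K)
    {d : ℕ} (σ : Representation ℂ ↥(chevF4.group K) (Fin d → ℂ)) (hirr : σ.IsIrreducible)
    (hσ : σ.character ≠ fun _ => 1) {g : ↥(chevF4.group K)} (hg : p ∣ orderOf g) : 10 * ‖σ.character g‖ < d := by
  have hX : XB K := fun g hg hgQ => Cfsg.Agent.H351.FR.X.x_box_sup h2 hg hgQ
  have hq : (9 : ℝ) ≤ (Nat.card K : ℝ) := by exact_mod_cast h9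
  have hinv := num_inv hq
  have hrq : rq K = 1 / 50 + ((Nat.card K : ℝ) ^ 2)⁻¹ := rfl
  have hfr : (finrank ℂ (Fin d → ℂ) : ℝ) = d := by rw [Module.finrank_fintype_fun_eq_card, Fintype.card_fin]
  have hd : 0 < d := by
    rcases Nat.eq_zero_or_pos d with rfl | h
    · exfalso
      have h1 : Subsingleton (Subrepresentation σ) := by
        refine ⟨fun A B => ?_⟩
        apply Subrepresentation.toSubmodule_injective
        exact Subsingleton.elim _ _
      exact not_subsingleton_iff_nontrivial.2 hirr.toNontrivial h1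
    · exact h
  have hg1 : g ≠ 1 := by
    rintro rfl
    rw [orderOf_one] at hg
    exact (Fact.out : p.Prime).one_lt.ne' (Nat.dvd_one.1 hg)
  have hconj : ∀ x y : ↥(chevF4.group K), y ≠ 1 → x * y * x⁻¹ ≠ 1 := by
    intro x y hy h
    apply hy
    have h1 : y = x⁻¹ * (x * y * x⁻¹) * x := by group
    rw [h1, h]
    group
  obtain ⟨x, i, hx⟩ := Cfsg.Agent.H744.FR.exists_par (K := K) (p := p) hg
  have hx1 := hconj x g hg1
  rw [← σ.char_conj g x]
  by_cases hi : i = 3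
  · subst hi
    have hr0 : 0 ≤ rq K := by
      unfold rq
      positivity
    have h := Cfsg.Agent.H374.FR.Comm.p1 h2 h9 σ hr0 (fun y hy hy1 => by
      rw [hfr]
      exact ratio_rad σ h2 h9 hirr hσ hy hy1) hx1 hx (fun h3 h4 =>
        hX _ (Cfsg.Agent.H980.RB.mem_sup (mem_XT.2 ⟨1, rfl⟩) xt_ne_one (h3 _ (mem_XT.2 ⟨1, rfl⟩))) h4)
    rw [hfr] at h
    exact ten_of_le hd (by linarith) h
  · rcases hD d σ hirr hσ i hi _ hx with h1 | ⟨y, h1⟩
    · exact ten_of_le hd (by linarith) h1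
    · rw [← σ.char_conj _ y]
      exact ten_of_le hd (by linarith) (ratio_cen σ h2 h9 hX hirr hσ h1 (hconj y _ hx1))

end

/-- **the row** -/
theorem row_of {K : Type} [Field K] [Fintype K] {p : ℕ} (hp : p.Prime) [CharP K p] (hp2 : p ≠ 2)
    (hq : 9 ≤ Fintype.card K) (hD : Dich K) : Cfsg.Agent.H210.TC.Row3 ↥(chevF4.group K) := by
  have : Fact p.Prime := ⟨hp⟩
  have h2 : (2 : K) ≠ 0 := by
    intro h
    have h1 : ((2 : ℕ) : K) = 0 := by exact_mod_cast h
    have h3 := (CharP.cast_eq_zero_iff K p 2).1 h1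
    exact hp2 ((Nat.prime_dvd_prime_iff_eq hp Nat.prime_two).1 h3)
  refine Cfsg.Agent.H982.FR.row3_of_ratio hp hp2 (by omega) ?_
  intro g hg χ hχ
  obtain ⟨d, σ, hirr, hσ⟩ := χ.2
  have h1 : σ.character ≠ fun _ => 1 := by
    intro h
    apply hχ
    apply Subtype.ext
    rw [← hσ, h]
    rfl
  have h3 := ten_of (p := p) h2 (by rw [Nat.card_eq_fintype_card]; exact hq) hD σ hirr h1 hg
  rw [← hσ, Representation.char_one, Module.finrank_fintype_fun_eq_card, Fintype.card_fin, Complex.norm_natCast]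
  exact h3

/-- **(D)** from helper395 -/
theorem dich_all {K : Type u} [Field K] [Finite K] (h2 : (2 : K) ≠ 0) (h9 : 9 ≤ Nat.card K) : Dich K :=
  fun _ σ hirr hσ _ hi _ hg => (Cfsg.Agent.H395.FR.dich h2 h9 σ hirr hσ hi hg).imp id (fun ⟨x, hx, _⟩ => ⟨x, hx⟩)

/-- **the ratio bound, `q` odd, `q ≥ 9`**: `10 |χ(g)| < χ(1)` for all `p`-singular `g` -/
theorem ten {K : Type u} [Field K] [Finite K] {p : ℕ} [Fact p.Prime] [CharP K p] (h2 : (2 : K) ≠ 0)
    (h9 : 9 ≤ Nat.card K) {d : ℕ} (σ : Representation ℂ ↥(chevF4.group K) (Fin d → ℂ)) (hirr : σ.IsIrreducible)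
    (hσ : σ.character ≠ fun _ => 1) {g : ↥(chevF4.group K)} (hg : p ∣ orderOf g) : 10 * ‖σ.character g‖ < d :=
  ten_of h2 h9 (dich_all h2 h9) σ hirr hσ hg

theorem two_ne {K : Type u} [Field K] [Finite K] (ho : Odd (Nat.card K)) : (2 : K) ≠ 0 := by
  have : Fintype K := Fintype.ofFinite K
  intro h
  have h1 : ((Fintype.card K : ℕ) : K) = 0 := Nat.cast_card_eq_zero K
  rw [Nat.card_eq_fintype_card] at ho
  obtain ⟨m, hm⟩ := ho
  rw [hm] at h1
  push_cast at h1
  rw [h, zero_mul, zero_add] at h1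
  exact one_ne_zero h1

/-- **the row `F₄(q)`, `q` odd, `q ≥ 9`** -/
theorem row3_F4_odd {K : Type} [Field K] [Fintype K] (ho : Odd (Fintype.card K)) (hq : 9 ≤ Fintype.card K) :
    Cfsg.Agent.H210.TC.Row3 ↥(chevF4.group K) := by
  have h2 : (2 : K) ≠ 0 := two_ne (by rw [Nat.card_eq_fintype_card]; exact ho)
  obtain ⟨p, hpc⟩ := CharP.exists K
  have hp : p.Prime := CharP.char_is_prime K p
  have hp2 : p ≠ 2 := by
    rintro rfl
    exact h2 (by exact_mod_cast CharP.cast_eq_zero K 2)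
  exact row_of hp hp2 hq (dich_all h2 (by rw [Nat.card_eq_fintype_card]; exact hq))

end Cfsg.Agent.H572.FR
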